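import Mathlib

/-! Spaces of nondegenerate alternating forms over a finite field have dimension at most half the rank. -/

set_option autoImplicit false

namespace H10.ND
open Matrix MvPolynomial

universe v

/-- the determinant of an alternating matrix is a square -/
theorem alt_sq {K : Type*} [Field K] (n : ℕ) : ∀ (ι : Type v) [Fintype ι] [DecidableEq ι], Fintype.card ι = n →
    ∀ A : Matrix ι ι K, (∀ i j, A i j = -A j i) → (∀ i, A i i = 0) → IsSquare A.det := by
  induction n using Nat.strong_induction_on with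
  | _ n ih =>
  intro ι _ _ hn A h1 h2
  by_cases z : A = 0
  · subst z
    cases isEmpty_or_nonempty ι
    · simp
    · simp
  obtain ⟨i, j, a0⟩ : ∃ i j, A i j ≠ 0 := by
    by_contra! k
    exact z (Matrix.ext k)
  have ij : i ≠ j := fun e => a0 (e ▸ h2 i)
  let f : Fin 2 → {k // k = i ∨ k = j} := ![⟨i, .inl rfl⟩, ⟨j, .inr rfl⟩]
  have hf : Function.Bijective f := ⟨fun a b e => by
      have e' := congrArg Subtype.val e
      fin_cases a <;> fin_cases b <;> first | rfl | exact absurd e' ij | exact absurd e' ij.symm, by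
    rintro ⟨k, rfl | rfl⟩
    exacts [⟨0, rfl⟩, ⟨1, rfl⟩]⟩
  let e := (Equiv.sumCongr (Equiv.ofBijective f hf) (Equiv.refl _)).trans (Equiv.sumCompl fun k => k = i ∨ k = j)
  have e0 : e (.inl 0) = i := rfl
  have e1 : e (.inl 1) = j := rfl
  have c : Fintype.card {k // ¬ (k = i ∨ k = j)} < n := by
    have := Fintype.card_congr e
    rw [Fintype.card_sum, Fintype.card_fin] at this
    omega
  rw [← det_submatrix_equiv_self e, ← fromBlocks_toBlocks (A.submatrix e e)]
  have hB : (A.submatrix e e).toBlocks₁₁ = !![0, A i j; -A i j, 0] := by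
    ext a b
    fin_cases a <;> fin_cases b <;> simp [toBlocks₁₁, e0, e1, h2, h1 j i]
  rw [hB]
  let _ : Invertible !![0, A i j; -A i j, 0] := ⟨!![0, -(A i j)⁻¹; (A i j)⁻¹, 0],
    by ext a b; fin_cases a <;> fin_cases b <;> simp [a0], by ext a b; fin_cases a <;> fin_cases b <;> simp [a0]⟩
  rw [det_fromBlocks₁₁]
  have iv : ⅟ !![0, A i j; -A i j, 0] = !![0, -(A i j)⁻¹; (A i j)⁻¹, 0] := rfl
  refine IsSquare.mul ⟨A i j, by simp [det_fin_two]⟩ (ih _ c _ rfl _ (fun a b => ?_) fun a => ?_)
  · simp only [iv, Matrix.sub_apply, mul_apply, Fin.sum_univ_two, toBlocks₂₂, toBlocks₂₁, toBlocks₁₂, of_apply,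
      submatrix_apply, e0, e1]
    rw [h1 (e (.inr a)) (e (.inr b)), h1 (e (.inr a)) i, h1 (e (.inr a)) j, h1 (e (.inr b)) i, h1 (e (.inr b)) j]
    simp
    ring
  · simp only [iv, Matrix.sub_apply, mul_apply, Fin.sum_univ_two, toBlocks₂₂, toBlocks₂₁, toBlocks₁₂, of_apply,
      submatrix_apply, e0, e1]
    rw [h2, h1 (e (.inr a)) i, h1 (e (.inr a)) j]
    simp
    ring

/-- Pfaffian and Chevalley-Warning -/
theorem pf {F : Type*} [Field F] [Finite F] {ι σ : Type*} [Fintype ι] [Fintype σ] [DecidableEq ι] [Nonempty ι]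
    (A : σ → Matrix ι ι F) (h1 : ∀ s i j, A s i j = -A s j i) (h2 : ∀ s i, A s i i = 0)
    (h : ∀ t : σ → F, t ≠ 0 → (∑ s, t s • A s).det ≠ 0) : 2 * Fintype.card σ ≤ Fintype.card ι := by
  classical
  have := Fintype.ofFinite F
  let M : Matrix ι ι (MvPolynomial σ F) := .of fun i j => ∑ s, C (A s i j) * X s
  have ev : ∀ t : σ → F, eval t M.det = (∑ s, t s • A s).det := fun t => by
    rw [RingHom.map_det]
    congr 1
    ext i j
    simp [M, Matrix.sum_apply, mul_comm]
  have dg : M.det.totalDegree ≤ Fintype.card ι := by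
    rw [det_apply']
    refine totalDegree_finsetSum_le fun π _ => (totalDegree_mul _ _).trans ?_
    rw [show ((Equiv.Perm.sign π : ℤ) : MvPolynomial σ F) = C ((Equiv.Perm.sign π : ℤ) : F) by simp, totalDegree_C,
      zero_add]
    refine (totalDegree_finsetProd _ _).trans ((Finset.sum_le_card_nsmul _ _ 1 fun i _ => ?_).trans (by simp))
    exact totalDegree_finsetSum_le fun s _ => (totalDegree_mul _ _).trans (by simp)
  obtain ⟨y, hy⟩ := alt_sq _ ι rfl (M.map (algebraMap _ (FractionRing (MvPolynomial σ F))))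
    (fun i j => by simp [M, h1 _ i j]) fun i => by simp [M, h2]
  rw [← RingHom.mapMatrix_apply, ← RingHom.map_det] at hy
  obtain ⟨P, rfl⟩ := IsIntegrallyClosed.exists_algebraMap_eq_of_isIntegral_pow (R := MvPolynomial σ F) two_pos
    (x := y) (by rw [sq, ← hy]; exact isIntegral_algebraMap)
  have e : M.det = P * P := IsFractionRing.injective _ (FractionRing (MvPolynomial σ F)) (by rw [hy, map_mul])
  have z : ∀ t : σ → F, eval t P = 0 ↔ t = 0 := fun t => by
    rw [← mul_self_eq_zero, ← map_mul, ← e, ev]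
    exact ⟨fun k => by_contra fun j => h t j k, fun k => by simp [k]⟩
  by_contra! k
  have P0 : P ≠ 0 := by
    rintro rfl
    obtain ⟨s⟩ : Nonempty σ := Fintype.card_pos_iff.1 (by omega)
    simpa using congrFun ((z 1).1 (by simp)) s
  rw [e, totalDegree_mul_of_isDomain P0 P0] at dg
  obtain ⟨p, hp⟩ := CharP.exists F
  have d := char_dvd_card_solutions p (f := P) (by omega)
  rw [Fintype.card_eq_one_iff.2 ⟨⟨0, (z 0).2 rfl⟩, fun t => Subtype.ext ((z t.1).1 t.2)⟩] at d
  exact (CharP.char_is_prime F p).one_lt.ne' (Nat.dvd_one.1 d)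

/-- coordinate-free form: every `β x`, `x ≠ 0`, is onto -/
theorem pf' {F V U : Type*} [Field F] [Finite F] [AddCommGroup V] [Module F V] [AddCommGroup U] [Module F U]
    [Module.Finite F V] [Module.Finite F U] [Nontrivial V] (β : V →ₗ[F] V →ₗ[F] U) (h1 : ∀ x, β x x = 0)
    (h : ∀ x, x ≠ 0 → Function.Surjective (β x)) : 2 * Module.finrank F U ≤ Module.finrank F V := by
  classical
  let b := Module.finBasis F V
  let c := Module.finBasis F U
  have : Nonempty (Fin (Module.finrank F V)) := ⟨⟨0, Module.finrank_pos⟩⟩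
  have sk : ∀ x y, β x y = -β y x := fun x y => by
    have := h1 (x + y)
    simp only [map_add, LinearMap.add_apply, h1, zero_add, add_zero] at this
    exact eq_neg_of_add_eq_zero_right this
  simpa using pf (fun s => .of fun i j => c.repr (β (b i) (b j)) s) (fun s i j => by simp [sk (b i) (b j)])
    (fun s i => by simp [h1]) fun t t0 z => by
    obtain ⟨v, v0, hv⟩ := Matrix.exists_vecMul_eq_zero_iff.2 z
    let ν : U →ₗ[F] F := ∑ s, t s • c.coord s
    have k : ν ∘ₗ β (b.equivFun.symm v) = 0 := b.ext fun j => by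
      have := congrFun hv j
      simp only [vecMul, dotProduct, Matrix.sum_apply, Matrix.smul_apply, of_apply, smul_eq_mul, Pi.zero_apply] at this
      simpa [ν, Finset.mul_sum, Finset.sum_comm (γ := Fin (Module.finrank F U)), mul_left_comm] using this
    refine t0 (funext fun s => ?_)
    obtain ⟨y, hy⟩ := h (b.equivFun.symm v) (mt (map_eq_zero_iff _ b.equivFun.symm.injective).1 v0) (c s)
    have := LinearMap.congr_fun k y
    rw [LinearMap.comp_apply, hy] at this
    simpa [ν, Finsupp.single_apply] using this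

theorem pf_card {F V U : Type*} [Field F] [AddCommGroup V] [Module F V] [AddCommGroup U] [Module F U]
    [Finite F] [Finite V] [Finite U] [Nontrivial V] (β : V →ₗ[F] V →ₗ[F] U) (h1 : ∀ x, β x x = 0)
    (h : ∀ x, x ≠ 0 → Function.Surjective (β x)) : Nat.card U ^ 2 ≤ Nat.card V := by
  rw [Module.natCard_eq_pow_finrank (K := F), Module.natCard_eq_pow_finrank (K := F) (V := V), ← pow_mul, mul_comm]
  exact Nat.pow_le_pow_right Nat.card_pos (pf' β h1 h)

end H10.ND
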